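import Cfsg.Agent.H232.NX.GenFive
import Cfsg.Agent.H921.NX.Tw

/-!
# S4816, layer (B), `q = p`: generic vectors for `Q = 5` (port of helper232's H232/NX/GenFive with an independent dummy prime
`q₀` in `SX`), and a vector with `|T_w| = 2 ^ n`
-/

set_option autoImplicit false
set_option linter.unusedSectionVars false

open scoped commutatorElement

namespace Cfsg.Agent.H302.RIM

open Cfsg.Agent.H232.NX
open Cfsg.Agent.H586.NX Cfsg.Agent.H20.GWX
open Cfsg.Agent.H684.GW (FD indep_of_weights)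
open Module
open LinearMap (BilinForm)

universe u v

section

variable {p q q₀ n : ℕ} {G : Type v} {W : Type u} {Y U : Type*} [Group G] [Finite G] [AddCommGroup W] [Finite W]
    [DistribMulAction G W] [Group Y] [Finite Y] [AddCommGroup U] [Finite U] [DistribMulAction Y U]
    {L Z : Subgroup G} {π : G →* Y} {a : L →* Multiplicative U} {X : Subgroup Y}

/-- a vector with `|T_w| = 2 ^ n`, `s = 2`, `Q = 5` -/
theorem exists_max {B : U → U → ZMod 2} (S : SX (U := U) p q₀ 2 n X B) (h : LB (W := W) p q 2 n L Z π a B)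
    (hQ : Nat.card W = 5 ^ (2 ^ n)) : ∃ w : W, w ≠ 0 ∧ 2 ^ n ≤ Nat.card (Tw L a w) := by
  classical
  have ntW := h.lx.nt
  obtain ⟨F, iF, iFin, iMod, D⟩ := Cfsg.Agent.H684.GW.exists_FD h.lx.nL h.lx.irr
  have hF : Nat.card F = 5 := by
    have h1 := card_W h.lx D
    rw [hQ] at h1
    exact (Nat.pow_left_injective (pow_ne_zero n two_ne_zero) h1).symm
  obtain ⟨f1, f2, f3⟩ := five_prop hF
  -- the bilinear form
  let _ : Module (ZMod 2) U := AddCommGroup.zmodModule (n := 2) S.exp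
  have B0l : ∀ v, B 0 v = 0 := fun v => by
    have := S.addl 0 0 v
    rw [add_zero] at this
    simpa using this
  have B0r : ∀ v, B v 0 = 0 := fun v => by
    have := S.addr v 0 0
    rw [add_zero] at this
    simpa using this
  let Bf : BilinForm (ZMod 2) U := LinearMap.mk₂ (ZMod 2) B S.addl
    (fun c u v => by
      rcases zmod2 c with rfl | rfl
      · rw [zero_smul, zero_smul, B0l]
      · rw [one_smul, one_smul])
    S.addr
    (fun c u v => by
      rcases zmod2 c with rfl | rfl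
      · rw [zero_smul, zero_smul, B0r]
      · rw [one_smul, one_smul])
  have hBf : ∀ u v, Bf u v = B u v := fun u v => rfl
  have halt : ∀ u, Bf u u = 0 := S.alt
  have hAlt : Bf.IsAlt := halt
  have hr : Bf.IsRefl := hAlt.isRefl
  have hnd : Bf.Nondegenerate := ⟨fun u hu => S.nd u hu, fun u hu => S.nd u fun v => hr v u (hu v)⟩
  have hUr : finrank (ZMod 2) U = 2 * n := by
    have h1 : Nat.card U = Nat.card (ZMod 2) ^ finrank (ZMod 2) U := Module.natCard_eq_pow_finrank
    rw [S.card, Nat.card_zmod] at h1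
    exact (Nat.pow_right_injective le_rfl h1).symm
  have surj : ∀ u : U, ∃ l : L, cl a l = u := fun u => ⟨rep h.lx u, by
    unfold cl
    rw [a_rep h.lx D]
    rfl⟩
  -- the Lagrangian subspace
  obtain ⟨M, hM, hMP⟩ := exists_lagrangian halt hnd (Sqr D a)
    ⟨1, 1, cl_one, by rw [map_one, one_mul, mul_one, one_smul]⟩
    (by
      rintro u v hu hv
      obtain ⟨l, hl⟩ := surj u
      obtain ⟨l', hl'⟩ := surj v
      obtain ⟨c, hc⟩ := Sqr.of_cl h D hu hl
      obtain ⟨c', hc'⟩ := Sqr.of_cl h D hv hl'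
      obtain ⟨d, hd⟩ := sg_sq f1 (B (cl a l') (cl a l))
      refine ⟨l * l', d * (c * c'), by rw [cl_mul, hl, hl'], ?_⟩
      rw [mul_sq h D l l' hc hc', hd]
      congr 1
      ring)
    (by
      rintro u v hu hv
      obtain ⟨l, hl⟩ := surj u
      obtain ⟨l', hl'⟩ := surj v
      obtain ⟨c, hc⟩ := sq_scal h D l
      obtain ⟨c', hc'⟩ := sq_scal h D l'
      obtain ⟨d, hd⟩ := sg_sq f1 (B (cl a l') (cl a l))
      obtain ⟨k, hk⟩ := f2 c c' (sq_ne h D hc) (sq_ne h D hc')
        (fun ⟨k, hk⟩ => hu ⟨l, k, hl, by rw [hc, hk]⟩) (fun ⟨k, hk⟩ => hv ⟨l', k, hl', by rw [hc', hk]⟩)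
      refine ⟨l * l', d * k, by rw [cl_mul, hl, hl'], ?_⟩
      rw [mul_sq h D l l' hc hc', hd, hk]
      congr 1
      ring)
  have hiso : ∀ u ∈ M, ∀ v ∈ M, B u v = 0 := by
    intro u hu v hv
    rw [← hM, LinearMap.BilinForm.mem_orthogonal_iff] at hv
    exact hv u hu
  obtain ⟨w0, hw0, hχ⟩ := exists_eigvec h D M.toAddSubgroup (fun u hu v hv => hiso u hu v hv) (fun u hu => hMP u hu)
  refine ⟨w0, hw0, ?_⟩
  have cM : Nat.card M = 2 ^ n := by
    have h1 := LinearMap.BilinForm.finrank_orthogonal hnd M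
    rw [hM, hUr] at h1
    have h2 : finrank (ZMod 2) M ≤ finrank (ZMod 2) U := Submodule.finrank_le _
    have h3 : Nat.card M = Nat.card (ZMod 2) ^ finrank (ZMod 2) M := Module.natCard_eq_pow_finrank
    rw [Nat.card_zmod] at h3
    rw [h3]
    congr 1
    omega
  rw [← cM]
  refine Nat.card_le_card_of_injective (fun m : M => (⟨m, ?_⟩ : Tw L a w0)) ?_
  · obtain ⟨l, hl⟩ := surj m
    obtain ⟨c, hc⟩ := hχ l (by rw [hl]; exact m.2)
    exact (Cfsg.Agent.H921.NX.mem_Tw D).2 ⟨l, hl, c, hc⟩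
  · intro m m' hmm
    exact Subtype.ext (congrArg (fun z : Tw L a w0 => (z : U)) hmm)

/-- generic vectors, `s = 2`, `Q = 5` -/
theorem exists_gen_five {B : U → U → ZMod 2} (S : SX (U := U) p q₀ 2 n X B) (h : LB (W := W) p q 2 n L Z π a B)
    (hQ : Nat.card W = 5 ^ (2 ^ n)) {i : ℕ} (hi : i + 2 = n) : ∃ w : W, w ≠ 0 ∧ Nat.card (Tw L a w) = 2 ^ i := by
  classical
  have ntW := h.lx.nt
  obtain ⟨F, iF, iFin, iMod, D⟩ := Cfsg.Agent.H684.GW.exists_FD h.lx.nL h.lx.irr
  have hF : Nat.card F = 5 := by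
    have h1 := card_W h.lx D
    rw [hQ] at h1
    exact (Nat.pow_left_injective (pow_ne_zero n two_ne_zero) h1).symm
  obtain ⟨f1, f2, f3⟩ := five_prop hF
  -- the bilinear form
  let _ : Module (ZMod 2) U := AddCommGroup.zmodModule (n := 2) S.exp
  have B0l : ∀ v, B 0 v = 0 := fun v => by
    have := S.addl 0 0 v
    rw [add_zero] at this
    simpa using this
  have B0r : ∀ v, B v 0 = 0 := fun v => by
    have := S.addr v 0 0
    rw [add_zero] at this
    simpa using this
  let Bf : BilinForm (ZMod 2) U := LinearMap.mk₂ (ZMod 2) B S.addl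
    (fun c u v => by
      rcases zmod2 c with rfl | rfl
      · rw [zero_smul, zero_smul, B0l]
      · rw [one_smul, one_smul])
    S.addr
    (fun c u v => by
      rcases zmod2 c with rfl | rfl
      · rw [zero_smul, zero_smul, B0r]
      · rw [one_smul, one_smul])
  have hBf : ∀ u v, Bf u v = B u v := fun u v => rfl
  have halt : ∀ u, Bf u u = 0 := S.alt
  have hAlt : Bf.IsAlt := halt
  have hr : Bf.IsRefl := hAlt.isRefl
  have hnd : Bf.Nondegenerate := ⟨fun u hu => S.nd u hu, fun u hu => S.nd u fun v => hr v u (hu v)⟩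
  have hUr : finrank (ZMod 2) U = 2 * n := by
    have h1 : Nat.card U = Nat.card (ZMod 2) ^ finrank (ZMod 2) U := Module.natCard_eq_pow_finrank
    rw [S.card, Nat.card_zmod] at h1
    exact (Nat.pow_right_injective le_rfl h1).symm
  have surj : ∀ u : U, ∃ l : L, cl a l = u := fun u => ⟨rep h.lx u, by
    unfold cl
    rw [a_rep h.lx D]
    rfl⟩
  -- the Lagrangian subspace
  obtain ⟨M, hM, hMP⟩ := exists_lagrangian halt hnd (Sqr D a)
    ⟨1, 1, cl_one, by rw [map_one, one_mul, mul_one, one_smul]⟩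
    (by
      rintro u v hu hv
      obtain ⟨l, hl⟩ := surj u
      obtain ⟨l', hl'⟩ := surj v
      obtain ⟨c, hc⟩ := Sqr.of_cl h D hu hl
      obtain ⟨c', hc'⟩ := Sqr.of_cl h D hv hl'
      obtain ⟨d, hd⟩ := sg_sq f1 (B (cl a l') (cl a l))
      refine ⟨l * l', d * (c * c'), by rw [cl_mul, hl, hl'], ?_⟩
      rw [mul_sq h D l l' hc hc', hd]
      congr 1
      ring)
    (by
      rintro u v hu hv
      obtain ⟨l, hl⟩ := surj u
      obtain ⟨l', hl'⟩ := surj v
      obtain ⟨c, hc⟩ := sq_scal h D l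
      obtain ⟨c', hc'⟩ := sq_scal h D l'
      obtain ⟨d, hd⟩ := sg_sq f1 (B (cl a l') (cl a l))
      obtain ⟨k, hk⟩ := f2 c c' (sq_ne h D hc) (sq_ne h D hc')
        (fun ⟨k, hk⟩ => hu ⟨l, k, hl, by rw [hc, hk]⟩) (fun ⟨k, hk⟩ => hv ⟨l', k, hl', by rw [hc', hk]⟩)
      refine ⟨l * l', d * k, by rw [cl_mul, hl, hl'], ?_⟩
      rw [mul_sq h D l l' hc hc', hd, hk]
      congr 1
      ring)
  have hiso : ∀ u ∈ M, ∀ v ∈ M, B u v = 0 := by
    intro u hu v hv
    rw [← hM, LinearMap.BilinForm.mem_orthogonal_iff] at hv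
    exact hv u hu
  obtain ⟨w0, hw0, hχ⟩ := exists_eigvec h D M.toAddSubgroup (fun u hu v hv => hiso u hu v hv) (fun u hu => hMP u hu)
  obtain ⟨x, y, hx, hy, hxy, hcard⟩ := exists_pair halt hnd hM hUr hi
  -- the weight vectors
  let σ : U ⧸ M → U := Function.surjInv (Submodule.mkQ_surjective M)
  have hσ : ∀ z, M.mkQ (σ z) = z := Function.surjInv_eq (Submodule.mkQ_surjective M)
  let e : U ⧸ M → W := fun z => D.op (rep h.lx (σ z)) w0
  have clr : ∀ u, cl a (rep h.lx u) = u := fun u => by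
    unfold cl
    rw [a_rep h.lx D]
    rfl
  have inj : ∀ (l : L) (v : W), v ≠ 0 → D.op l v ≠ 0 := by
    intro l v hv h0
    apply hv
    have h1 := LinearMap.congr_fun (D.op_inv_mul l) v
    rw [Module.End.mul_apply, h0, map_zero] at h1
    exact h1.symm
  -- eigenvalues on `w0`
  let χ : {l : L // cl a l ∈ M} → F := fun l => (hχ l.1 l.2).choose
  have hχ' : ∀ l : {l : L // cl a l ∈ M}, D.op l.1 w0 = χ l • w0 := fun l => (hχ l.1 l.2).choose_spec
  have hχ0 : ∀ l, χ l ≠ 0 := by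
    intro l h0
    have h1 := hχ' l
    rw [h0, zero_smul] at h1
    exact inj _ _ hw0 h1
  have wt : ∀ (l : {l : L // cl a l ∈ M}) (m : L),
      D.op l.1 (D.op m w0) = (sg F (B (cl a l.1) (cl a m)) * χ l) • D.op m w0 := by
    intro l m
    have h1 := LinearMap.congr_fun (op_sg h D l.1 m) w0
    rw [Module.End.mul_apply, LinearMap.smul_apply, Module.End.mul_apply, hχ', map_smul, smul_smul] at h1
    exact h1
  have hsg : ∀ b b' : ZMod 2, sg F b = sg F b' → b = b' := by
    intro b b' hb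
    rcases zmod2 b with rfl | rfl <;> rcases zmod2 b' with rfl | rfl
    · rfl
    · rw [sg_zero, sg_one] at hb; exact absurd hb f3
    · rw [sg_zero, sg_one] at hb; exact absurd hb.symm f3
    · rfl
  have hli : LinearIndependent F e := by
    refine indep_of_weights (κ := {l : L // cl a l ∈ M}) e (fun z => inj _ _ hw0) (fun l => D.op l.1)
      (fun l z => sg F (B (cl a l.1) (σ z)) * χ l) (fun l z => ?_) ?_
    · have h1 := wt l (rep h.lx (σ z))
      rw [clr] at h1
      exact h1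
    · intro z z' hz
      have h1 : σ z - σ z' ∈ Bf.orthogonal M := by
        rw [LinearMap.BilinForm.mem_orthogonal_iff]
        intro m hm
        obtain ⟨l, hl⟩ := surj m
        have h2 := mul_right_cancel₀ (hχ0 _) (hz ⟨l, by rw [hl]; exact hm⟩)
        have h3 := hsg _ _ h2
        show Bf m (σ z - σ z') = 0
        rw [map_sub, hBf, hBf, ← hl, h3, sub_self]
      rw [hM] at h1
      rw [← hσ z, ← hσ z', ← sub_eq_zero, ← map_sub]
      exact (Submodule.Quotient.mk_eq_zero M).2 h1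
  have hcl : ∀ l : L, ∃ c : F, c ≠ 0 ∧ D.op l w0 = c • e (M.mkQ (cl a l)) := by
    intro l
    have h1 : cl a ((rep h.lx (σ (M.mkQ (cl a l))))⁻¹ * l) ∈ M := by
      rw [cl_mul, cl_inv, clr, ← Submodule.Quotient.mk_eq_zero M, Submodule.Quotient.mk_add, Submodule.Quotient.mk_neg]
      have h2 := hσ (M.mkQ (cl a l))
      rw [Submodule.mkQ_apply, Submodule.mkQ_apply] at h2
      rw [Submodule.mkQ_apply, h2, neg_add_cancel]
    refine ⟨χ ⟨_, h1⟩, hχ0 _, ?_⟩
    have h2 := hχ' ⟨_, h1⟩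
    have h3 : l = rep h.lx (σ (M.mkQ (cl a l))) * ((rep h.lx (σ (M.mkQ (cl a l))))⁻¹ * l) := by group
    conv_lhs => rw [h3]
    rw [map_mul, Module.End.mul_apply, h2, map_smul]
  -- the vector
  obtain ⟨m1, hm1⟩ := surj x
  obtain ⟨m2, hm2⟩ := surj y
  obtain ⟨b0, hb0, e0⟩ := hcl 1
  obtain ⟨b1, hb1, e1⟩ := hcl m1
  obtain ⟨b2, hb2, e2⟩ := hcl m2
  rw [cl_one, map_zero, map_one, Module.End.one_apply] at e0
  rw [hm1] at e1
  rw [hm2] at e2
  obtain ⟨X1, hX1⟩ : ∃ X1, X1 = M.mkQ x := ⟨_, rfl⟩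
  obtain ⟨X2, hX2⟩ : ∃ X2, X2 = M.mkQ y := ⟨_, rfl⟩
  rw [← hX1] at e1
  rw [← hX2] at e2
  have mk0 : ∀ u : U, M.mkQ u = 0 ↔ u ∈ M := fun u => Submodule.Quotient.mk_eq_zero M
  have n1 : X1 ≠ 0 := by rw [hX1, Ne, mk0]; exact hx
  have n2 : X2 ≠ 0 := by rw [hX2, Ne, mk0]; exact hy
  have n12 : X1 + X2 ≠ 0 := by rw [hX1, hX2, ← map_add, Ne, mk0]; exact hxy
  have tt : ∀ z : U ⧸ M, z + z = 0 := by
    intro z
    obtain ⟨u, rfl⟩ := Submodule.mkQ_surjective M z
    rw [← map_add, ← two_nsmul, S.exp, map_zero]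
  have eqadd : ∀ z z' : U ⧸ M, z + z' = 0 → z = z' := fun z z' hz => by
    have h1 : z + z' + z' = z' := by rw [hz, zero_add]
    rwa [add_assoc, tt, add_zero] at h1
  have n12' : X1 ≠ X2 := fun h0 => n12 (by rw [h0, tt])
  obtain ⟨w, hw⟩ : ∃ w, w = w0 + D.op m1 w0 + D.op m2 w0 := ⟨_, rfl⟩
  have hwe : ∀ k : F, k • w = (k * b0) • e 0 + (k * b1) • e X1 + (k * b2) • e X2 := by
    intro k
    rw [hw, smul_add, smul_add, e1, e2, smul_smul, smul_smul]
    congr 2
    conv_lhs => rw [e0]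
    rw [smul_smul]
  have hwne : w ≠ 0 := by
    intro h0
    have h1 := hwe 1
    rw [h0, smul_zero, one_mul, one_mul, one_mul] at h1
    have h2 : (0 : F) • e 0 + (0 : F) • e X1 + (0 : F) • e X2 = b0 • e 0 + b1 • e X1 + b2 • e X2 := by
      rw [← h1, zero_smul, zero_smul, zero_smul, add_zero, add_zero]
    have h3 := coef hli h2 0
    rw [if_pos rfl, if_neg n1, if_neg n2, if_pos rfl, if_neg n1, if_neg n2, add_zero, add_zero, add_zero, add_zero] at h3
    exact hb0 h3.symm
  refine ⟨w, hwne, ?_⟩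
  rw [← hcard]
  refine Nat.card_congr (Equiv.subtypeEquivRight fun u => ?_)
  constructor
  · rintro ⟨l, hl, c, hc1, hc2⟩
    obtain ⟨k, hk⟩ := D.sch c hc1
    replace hc2 : D.op l w = k • w := hc2.trans (hk w)
    change cl a l = u at hl
    have hk0 : k ≠ 0 := by
      rintro rfl
      rw [zero_smul] at hc2
      exact inj _ _ hwne hc2
    obtain ⟨α0, hα0, a0⟩ := hcl l
    obtain ⟨α1, hα1, a1⟩ := hcl (l * m1)
    obtain ⟨α2, hα2, a2⟩ := hcl (l * m2)
    rw [hl] at a0
    rw [cl_mul, hl, hm1, map_add, ← hX1] at a1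
    rw [cl_mul, hl, hm2, map_add, ← hX2] at a2
    obtain ⟨ub, hub⟩ : ∃ ub, ub = M.mkQ u := ⟨_, rfl⟩
    rw [← hub] at a0 a1 a2
    have h1 : α0 • e ub + α1 • e (ub + X1) + α2 • e (ub + X2) =
        (k * b0) • e 0 + (k * b1) • e X1 + (k * b2) • e X2 := by
      rw [← hwe, ← hc2, ← a0, ← a1, ← a2, map_mul, map_mul, Module.End.mul_apply, Module.End.mul_apply, hw, map_add, map_add]
    have E := coef hli h1
    have hub0 : ub = 0 := by
      by_contra hne
      have hE0 := E 0
      rw [if_neg hne, if_pos rfl, if_neg n1, if_neg n2, zero_add, add_zero, add_zero] at hE0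
      have hkb : k * b0 ≠ 0 := mul_ne_zero hk0 hb0
      by_cases c1 : ub + X1 = 0
      · have hu1 : ub = X1 := eqadd _ _ c1
        have hE := E (X1 + X2)
        rw [hu1, if_neg (fun h0 => n2 (by simpa using h0)), if_neg (fun h0 => n12 (by rw [← h0, tt])), if_pos rfl,
          if_neg (fun h0 => n12 h0.symm), if_neg (fun h0 => n2 (by simpa using h0)),
          if_neg (fun h0 => n1 (by simpa using h0))] at hE
        simp only [zero_add, add_zero] at hE
        exact hα2 hE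
      · by_cases c2 : ub + X2 = 0
        · have hu2 : ub = X2 := eqadd _ _ c2
          have hE := E (X2 + X1)
          rw [hu2, if_neg (fun h0 => n1 (by simpa using h0)), if_pos rfl, if_neg (fun h0 => n12 (by rw [add_comm, ← h0, tt])),
            if_neg (fun h0 => n12 (by rw [add_comm]; exact h0.symm)), if_neg (fun h0 => n2 (by simpa using h0)),
            if_neg (fun h0 => n1 (by simpa using h0))] at hE
          simp only [zero_add, add_zero] at hE
          exact hα1 hE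
        · rw [if_neg c1, if_neg c2, add_zero] at hE0
          exact hkb hE0.symm
    have huM : u ∈ M := by rw [← mk0, ← hub, hub0]
    have hlM : cl a l ∈ M := by rw [hl]; exact huM
    have w1 := wt ⟨l, hlM⟩ m1
    have w2 := wt ⟨l, hlM⟩ m2
    have w3 := hχ' ⟨l, hlM⟩
    change D.op l (D.op m1 w0) = _ at w1
    change D.op l (D.op m2 w0) = _ at w2
    change D.op l w0 = _ at w3
    have hχl := hχ0 ⟨l, hlM⟩
    obtain ⟨r, hr⟩ : ∃ r, r = χ ⟨l, hlM⟩ := ⟨_, rfl⟩
    rw [← hr] at w1 w2 w3 hχl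
    have hcx : cl a (⟨l, hlM⟩ : {l : L // cl a l ∈ M}).1 = u := hl
    rw [hcx, hm1] at w1
    rw [hcx, hm2] at w2
    have h2 : (r * b0) • e 0 + (sg F (B u x) * r * b1) • e X1 + (sg F (B u y) * r * b2) • e X2 =
        (k * b0) • e 0 + (k * b1) • e X1 + (k * b2) • e X2 := by
      rw [← hwe, ← hc2, hw, map_add, map_add, w1, w2, w3, e1, e2, smul_smul, smul_smul]
      congr 2
      conv_rhs => rw [e0]
      rw [smul_smul]
    have E2 := coef hli h2
    have E20 := E2 0
    rw [if_pos rfl, if_neg n1, if_neg n2, if_pos rfl, if_neg n1, if_neg n2, add_zero, add_zero, add_zero, add_zero] at E20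
    have hrk : r = k := mul_right_cancel₀ hb0 E20
    have E21 := E2 X1
    rw [if_neg n1.symm, if_pos rfl, if_neg n12'.symm, if_neg n1.symm, if_pos rfl, if_neg n12'.symm, zero_add, add_zero,
      zero_add, add_zero, hrk] at E21
    have E22 := E2 X2
    rw [if_neg n2.symm, if_neg n12', if_pos rfl, if_neg n2.symm, if_neg n12', if_pos rfl] at E22
    simp only [zero_add, hrk] at E22
    refine ⟨huM, ?_, ?_⟩
    · have h3 : sg F (B u x) = sg F 0 := by
        rw [sg_zero]
        have h4 : sg F (B u x) * (k * b1) = 1 * (k * b1) := by rw [one_mul, ← mul_assoc]; exact E21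
        exact mul_right_cancel₀ (mul_ne_zero hk0 hb1) h4
      exact hsg _ _ h3
    · have h3 : sg F (B u y) = sg F 0 := by
        rw [sg_zero]
        have h4 : sg F (B u y) * (k * b2) = 1 * (k * b2) := by rw [one_mul, ← mul_assoc]; exact E22
        exact mul_right_cancel₀ (mul_ne_zero hk0 hb2) h4
      exact hsg _ _ h3
  · rintro ⟨huM, h1, h2⟩
    obtain ⟨l, hl⟩ := surj u
    have hlM : cl a l ∈ M := by rw [hl]; exact huM
    refine ⟨l, hl, DistribSMul.toAddMonoidHom W (χ ⟨l, hlM⟩), ?_, ?_⟩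
    · intro l' hl' v
      exact (D.lin l' hl' _ v).symm
    · change D.op l w = χ ⟨l, hlM⟩ • w
      have w1 := wt ⟨l, hlM⟩ m1
      have w2 := wt ⟨l, hlM⟩ m2
      have w3 := hχ' ⟨l, hlM⟩
      change D.op l (D.op m1 w0) = _ at w1
      change D.op l (D.op m2 w0) = _ at w2
      change D.op l w0 = _ at w3
      have hcx : cl a (⟨l, hlM⟩ : {l : L // cl a l ∈ M}).1 = u := hl
      rw [hcx, hm1, ← hBf, h1, sg_zero, one_mul] at w1
      rw [hcx, hm2, ← hBf, h2, sg_zero, one_mul] at w2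
      rw [hw, map_add, map_add, w1, w2, w3, smul_add, smul_add]

end

end Cfsg.Agent.H302.RIM
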