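import Cfsg.Agent.H302.RIM.Five
import Cfsg.Agent.H302.RIM.ThreeNum
import Cfsg.Agent.H234.RIM.KillSix

/-!
# S4816, layer (B), `q = p = 3`: `n ≠ 6` (helper302)
-/

set_option autoImplicit false

namespace Cfsg.Agent.H302.RIM

open Cfsg.Agent.H586.NX Cfsg.Agent.H473.NX Cfsg.Agent.H263.RIM
open Cfsg.Agent.H37.NW (P)
open Cfsg.Agent.H994.NX (P1 P2 P3 P4 P5 P6)
open Cfsg.Agent.H662.GW

theorem num_six {f j M : ℕ} (hf : 1 ≤ f) (hj : 1 ≤ j) (hj6 : j ≤ 6) (hI : Ineq 3 2 6 j (3 ^ f) M)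
    (hM : M * (3 * 4 ^ (j * (j - 1) / 2) * P 2 (6 - j)) ≤ P 2 6) : False := by
  rw [P6] at hM
  have h : j = 1 ∨ j = 2 ∨ j = 3 ∨ j = 4 ∨ j = 5 ∨ j = 6 := by omega
  rcases h with rfl | rfl | rfl | rfl | rfl | rfl
  · have := ineq_pow (e := 22) hf (by norm_num) hI
    rw [show 6 - 1 = 5 from rfl, P5] at hM
    norm_num at this hM
    omega
  · have := ineq_pow (e := 32) hf (by norm_num) hI
    rw [show 6 - 2 = 4 from rfl, P4] at hM
    norm_num at this hM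
    omega
  · have := ineq_pow (e := 38) hf (by norm_num) hI
    rw [show 6 - 3 = 3 from rfl, P3] at hM
    norm_num at this hM
    omega
  · have := ineq_pow (e := 40) hf (by norm_num) hI
    rw [show 6 - 4 = 2 from rfl, P2] at hM
    norm_num at this hM
    omega
  · have := ineq_pow (e := 42) hf (by norm_num) hI
    rw [show 6 - 5 = 1 from rfl, P1] at hM
    norm_num at this hM
    omega
  · have := ineq_pow (e := 42) hf (by norm_num) hI
    have h0 : P 2 (6 - 6) = 1 := by simp [P]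
    rw [h0] at hM
    norm_num at this hM
    omega

variable {s n f : ℕ} {Y U : Type*} [Group Y] [Finite Y] [AddCommGroup U] [Finite U] [DistribMulAction Y U]
    {X : Subgroup Y}

/-- `s = 2` and `n ≤ 5` -/
theorem le_five {B : U → U → ZMod s} (h : SP 3 s n f X B) : s = 2 ∧ n ≤ 5 := by
  obtain ⟨q₀, S⟩ := exists_SX' h
  have := Fact.mk S.hp
  obtain ⟨x, hx⟩ := exists_prime_orderOf_dvd_card' 3 S.pY
  obtain ⟨j, j1, j2, j3, -⟩ := exists_fix S hx
  obtain ⟨rfl, hc⟩ := num_SP h hx j2 j3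
  refine ⟨rfl, ?_⟩
  have hn6 : n ≤ 6 := by
    rcases hc with ⟨-, h⟩ | ⟨h, -⟩ | ⟨h, -⟩ <;> omega
  rcases Nat.lt_or_ge n 6 with h5 | h5
  · omega
  exfalso
  obtain rfl : n = 6 := by omega
  exact num_six h.hf j1 j2 (h.ineq x hx j j2 j3)
    (Cfsg.Agent.H234.RIM.KillSix.sharp S x hx j j2 j3)

end Cfsg.Agent.H302.RIM
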